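import Cfsg.Agent.H551.OddTwoNeg
import Cfsg.Agent.Mrg.Omega.ML.Ex.Typ.List
import Cfsg.Agent.Tits.Generic

/-!
# S4785, characteristic two: the rows (helper551)

* `row_of_splitT`, `row_of_rgdt` : `Row G` from a split (B,N)-pair (root group datum) of type `M` and `EvenPar M`;
* `row_of_typ` : all groups of Lie type in characteristic two except the Suzuki groups and `²F₄`, from `EvenPar` for the
  types `A_n` (`n ≥ 2`), `D_n` (`n` odd) and `E₆`.
-/

set_option autoImplicit false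

namespace Cfsg.Agent.H551.OddTwo

open Cfsg Cfsg.Agent.H453.OddM Cfsg.Agent.FixBN Cfsg.Agent.Tits.Core
open Cfsg.Agent.Omega.ML.Ex.Typ Cfsg.Agent.LieRecognition.BNCox
open Cfsg.Agent

theorem finite_of_splitT {G : Type*} [Group G] [Finite G] {I : Type*} {M : CoxeterMatrix I}
    {P : Cfsg.BNPair G} {e : I ≃ P.S} (hM : BNType P M e) : Finite M.Group := by
  obtain ⟨hN, cs, -⟩ := hM
  have : Finite (P.N ⧸ (P.B ⊓ P.N).subgroupOf P.N) := inferInstance
  exact Finite.of_equiv _ cs.mulEquiv.toEquiv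

theorem row_of_splitT {G : Type*} [Group G] [Finite G] [IsSimpleGroup G] {I : Type*} [Nonempty I]
    {M : CoxeterMatrix I} (hG : HasSplitT 2 M G) (hE : Finite M.Group → EvenPar M) : Row G := by
  obtain ⟨P, U, e, hS, hM⟩ := hG
  exact row_of_type hS hM (hE (finite_of_splitT hM))

theorem row_of_rgdt {G : Type*} [Group G] [Finite G] [IsSimpleGroup G] {l : ℕ} (hl : 0 < l)
    {M : CoxeterMatrix (Fin l)} (hG : HasRGDT 2 M G) (hE : Finite M.Group → EvenPar M) : Row G := by
  have : Nonempty (Fin l) := ⟨⟨0, hl⟩⟩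
  exact row_of_splitT (hG.hasSplitT Nat.prime_two hl) hE

section

variable {G : Type*} [Group G] [Finite G] [IsSimpleGroup G]

theorem row_B {l : ℕ} (hl : 0 < l) (hG : HasRGDT 2 (CoxeterMatrix.B l) G) : Row G :=
  row_of_rgdt hl hG fun _ => evenPar_B

theorem row_D {l : ℕ} (hl : Even l) (hG : HasRGDT 2 (Nodes.TypeD.M l) G) : Row G :=
  row_of_rgdt (by omega) hG fun _ => evenPar_D hl

theorem row_E7 (hG : HasRGDT 2 CoxeterMatrix.E₇ G) : Row G := row_of_rgdt (by omega) hG fun _ => evenPar_E7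

theorem row_E8 (hG : HasRGDT 2 CoxeterMatrix.E₈ G) : Row G := row_of_rgdt (by omega) hG fun _ => evenPar_E8

theorem row_F4 (hG : HasRGDT 2 CoxeterMatrix.F₄ G) : Row G := row_of_rgdt (by omega) hG fun _ => evenPar_F4

theorem row_G2 (hG : HasRGDT 2 CoxeterMatrix.G₂ G) : Row G := row_of_rgdt (by omega) hG fun _ => evenPar_G2

theorem row_rank_one {M : CoxeterMatrix (Fin 1)} (hG : HasRGDT 2 M G) : Row G :=
  row_of_rgdt one_pos hG fun _ => evenPar_one M

end

/-- the dihedral group of order `16` -/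
theorem evenPar_eight (M : CoxeterMatrix (Fin 2)) (h8 : M 0 1 = 8) [Finite M.Group] : EvenPar M := by
  set cs := M.toCoxeterSystem with hcs
  set s := cs.simple 0 with hs
  set t := cs.simple 1 with ht
  have hord : orderOf (s * t) = 8 := by
    rw [← h8]; exact Cfsg.Agent.Tits.Generic.orderOf_eq (cs := cs) 0 1
  have hs1 : s * s = 1 := cs.simple_mul_simple_self 0
  have ht1 : t * t = 1 := cs.simple_mul_simple_self 1
  have hsi : s⁻¹ = s := (eq_inv_of_mul_eq_one_left hs1).symm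
  have hti : t⁻¹ = t := (eq_inv_of_mul_eq_one_left ht1).symm
  have h81 : (s * t) ^ 8 = 1 := by rw [← hord]; exact pow_orderOf_eq_one _
  set z := (s * t) ^ 4 with hz
  have hzz : z * z = 1 := by rw [hz, ← pow_add]; exact h81
  have hzi : z⁻¹ = z := (eq_inv_of_mul_eq_one_left hzz).symm
  have hzs : s * z * s⁻¹ = z := by
    have h1 : s * z * s⁻¹ = (s * (s * t) * s⁻¹) ^ 4 := by rw [conj_pow]
    have h2 : s * (s * t) * s⁻¹ = (s * t)⁻¹ := by
      rw [mul_inv_rev, hti, ← mul_assoc, hs1, one_mul]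
    rw [h1, h2, inv_pow, ← hz, hzi]
  have hzt : t * z * t⁻¹ = z := by
    have h1 : t * z * t⁻¹ = (t * (s * t) * t⁻¹) ^ 4 := by rw [conj_pow]
    have h2 : t * (s * t) * t⁻¹ = (s * t)⁻¹ := by
      rw [mul_inv_rev, hti, hsi, mul_assoc, mul_assoc, ht1, mul_one]
    rw [h1, h2, inv_pow, ← hz, hzi]
  have hsim : ∀ i : Fin 2, cs.simple i = s ∨ cs.simple i = t := by
    intro i
    fin_cases i
    · exact Or.inl rfl
    · exact Or.inr rfl
  have hc : ∀ w : M.Group, z * w = w * z := by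
    intro w
    induction w using cs.simple_induction_left with
    | one => rw [mul_one, one_mul]
    | mul_simple_left w i ih =>
      have h1 : cs.simple i * z = z * cs.simple i := by
        rcases hsim i with h2 | h2
        · rw [h2]; exact mul_inv_eq_iff_eq_mul.1 hzs
        · rw [h2]; exact mul_inv_eq_iff_eq_mul.1 hzt
      rw [← mul_assoc, ← h1, mul_assoc, ih, mul_assoc]
  have hz1 : z ≠ 1 := by
    intro h
    have h1 := Nat.le_of_dvd (by norm_num) (orderOf_dvd_of_pow_eq_one h)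
    omega
  refine evenPar_of_central z hzz hc fun J hJ hzJ => ?_
  obtain ⟨k, hk⟩ : ∃ k, k ∉ J := by
    by_contra hcon
    push Not at hcon
    exact hJ (Set.eq_univ_of_forall hcon)
  obtain ⟨i, hi⟩ := (by decide : ∀ k : Fin 2, ∃ i : Fin 2, ∀ j, j ≠ k → j = i) k
  have hle : WJ cs J ≤ Subgroup.zpowers (cs.simple i) := by
    unfold WJ
    rw [Subgroup.closure_le]
    rintro _ ⟨j, hj, rfl⟩
    rw [hi j (by rintro rfl; exact hk hj)]
    exact Subgroup.mem_zpowers _
  obtain ⟨m, hm⟩ := Subgroup.mem_zpowers_iff.1 (hle hzJ)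
  have hsq : cs.simple i ^ (2 : ℤ) = 1 := by
    rw [zpow_ofNat, sq]; exact cs.simple_mul_simple_self i
  have hcase : z = 1 ∨ z = cs.simple i := by
    rcases Int.even_or_odd' m with ⟨r, hr | hr⟩
    · left
      rw [← hm, hr, zpow_mul, hsq, one_zpow]
    · right
      rw [← hm, hr, zpow_add, zpow_mul, hsq, one_zpow, one_mul, zpow_one]
  rcases hcase with h1 | h1
  · exact hz1 h1
  · have h2 : s * t = t * s := by
      rcases hsim i with h3 | h3
      · rw [h3] at h1; rw [← h1]; exact hc t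
      · rw [h3] at h1; rw [← h1]; exact (hc s).symm
    have h3 : (s * t) ^ 2 = 1 := by
      rw [sq]
      calc s * t * (s * t) = s * (t * s) * t := by group
        _ = s * (s * t) * t := by rw [h2]
        _ = (s * s) * (t * t) := by group
        _ = 1 := by rw [hs1, ht1, one_mul]
    have h4 := Nat.le_of_dvd (by norm_num) (orderOf_dvd_of_pow_eq_one h3)
    omega

/-- **All the groups of Lie type in characteristic two except the Suzuki groups and `²F₄`.** -/
theorem row_of_typ (hA : ∀ n, 2 ≤ n → Finite (cA n).Group → EvenPar (cA n))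
    (hD : ∀ n, 1 ≤ n → Odd n → Finite (Nodes.TypeD.M n).Group → EvenPar (Nodes.TypeD.M n))
    (hE6 : Finite CoxeterMatrix.E₆.Group → EvenPar CoxeterMatrix.E₆)
    {G : Type*} [Group G] [Finite G] [IsSimpleGroup G]
    (hSz : Lie.IsoSuzuki G → Row G) (hTw : Lie.Iso2F4 G → Row G) (hG : IsLieTypeChar 2 G) : Row G := by
  have : Fact (Nat.Prime 2) := ⟨Nat.prime_two⟩
  rcases hG with h | h | h | h | h | h | h | h | h | h | h
  · obtain ⟨n, hn, h⟩ := typ_of_PSL h
    rcases Nat.lt_or_ge n 2 with h2 | h2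
    · obtain rfl : n = 1 := by omega
      exact row_rank_one h
    · exact row_of_rgdt (by omega) h (hA n h2)
  · obtain ⟨F, _, _, _, m, hm, -, ⟨e⟩⟩ := h
    exact row_B (by omega) ((typ_PSp (by omega)).of_equiv e.symm)
  · obtain ⟨F, _, _, _, n, q, hF, hn, -, ⟨e⟩⟩ := h
    obtain ⟨m, hm, h⟩ := typ_PSU (p := 2) hF hn
    exact row_B (by omega) (h.of_equiv e.symm)
  · exfalso
    obtain ⟨F, _, _, _, m, hm, hodd, ⟨e⟩⟩ := h
    obtain ⟨k, -, hk⟩ := FiniteField.card F 2
    rw [hk] at hodd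
    exact absurd hodd (by
      rw [Nat.not_odd_iff_even]
      exact (even_two).pow_of_ne_zero k.ne_zero)
  · obtain ⟨F, _, _, _, m, hm, ⟨e⟩⟩ := h
    obtain ⟨n, rfl⟩ : ∃ n, m = n + 3 := ⟨m - 3, by omega⟩
    have h1 : HasRGDT 2 (Nodes.TypeD.M (n + 1)) G := (typ_PO_plus n).of_equiv e.symm
    rcases Nat.even_or_odd (n + 1) with h2 | h2
    · exact row_D h2 h1
    · exact row_of_rgdt (by omega) h1 (hD (n + 1) (by omega) h2)
  · obtain ⟨F, _, _, _, m, a, b, hm, hab, ⟨e⟩⟩ := h
    exact row_B (by omega) ((typ_PO_minus hab (by omega)).of_equiv e.symm)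
  · rcases typ_of_exc h with h | h | h | h | h
    · exact row_G2 h
    · exact row_F4 h
    · exact row_of_rgdt (by omega) h hE6
    · exact row_E7 h
    · exact row_E8 h
  · obtain ⟨K, _, _, _, q, hq, ⟨hK, ⟨e⟩⟩ | ⟨hK, ⟨e⟩⟩⟩ := h
    · exact row_F4 ((typ_twE6 hq hK 2).of_equiv e.symm)
    · exact row_G2 ((typ_twD4 hq hK 2).of_equiv e.symm)
  · exact hSz h.2
  · exact hTw h.2
  · omega

end Cfsg.Agent.H551.OddTwo
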