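import Cfsg.Agent.H551.OddTwoRows
import Cfsg.Agent.H60.HerTwF4
import Cfsg.Agent.H892.HerSz

/-!
# S4785, characteristic two: the Suzuki groups and `²F₄` (helper551)

* `row_sz`, `row_twF4`;
* `row_of_lie` : all groups of Lie type in characteristic two, from `EvenPar` for the types `A_n` (`n ≥ 2`),
  `D_n` (`n` odd) and `E₆`.
-/

set_option autoImplicit false

namespace Cfsg.Agent.H551.OddTwo

open Cfsg Cfsg.Agent.H453.OddM Cfsg.Agent.FixBN Cfsg.Agent.Tits.Core
open Cfsg.Agent.Omega.ML.Ex.Typ Cfsg.Agent.LieRecognition.BNCox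
open Cfsg.Agent

universe u

theorem row_sz {G : Type u} [Group G] [Finite G] [IsSimpleGroup G] (h : Lie.IsoSuzuki G) : Row G := by
  obtain ⟨K, i1, i2, m, hm, hK, ⟨e⟩⟩ := h
  have H := Cfsg.Agent.LieRecognition.SzMatrix.good hK
  have hsimple : IsSimpleGroup ↥(Cfsg.Lie.Sz K (2 ^ (m + 1))) := Cfsg.Agent.S1162.result hm hK
  have hT : HasSplitT 2 (CoxeterMatrix.B 1) G :=
    Cfsg.Agent.H892.HerSz.splitT_of_equiv e.symm (Cfsg.Agent.Omega.ML.LieRow.SzSplit.bnPair H) H.unip (s := H.w) rfl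
      (Cfsg.Agent.Omega.ML.LieRow.SzSplit.split hm hK H hsimple)
  exact row_of_splitT hT fun _ => evenPar_B

theorem row_twF4 {G : Type u} [Group G] [Finite G] [IsSimpleGroup G] (h : Lie.Iso2F4 G) : Row G := by
  obtain ⟨K, i1, i2, m, hm, hK, ⟨e⟩⟩ := h
  obtain ⟨M, hM, hT⟩ := Cfsg.Agent.H60.HerTwF4.hasSplitT hm hK e.symm
  exact row_of_splitT hT fun _ => evenPar_eight M hM

/-- **All the groups of Lie type in characteristic two.** -/
theorem row_of_lie (hA : ∀ n, 2 ≤ n → Finite (cA n).Group → EvenPar (cA n))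
    (hD : ∀ n, 1 ≤ n → Odd n → Finite (Nodes.TypeD.M n).Group → EvenPar (Nodes.TypeD.M n))
    (hE6 : Finite CoxeterMatrix.E₆.Group → EvenPar CoxeterMatrix.E₆)
    {G : Type u} [Group G] [Finite G] [IsSimpleGroup G] (hG : IsLieTypeChar 2 G) : Row G :=
  row_of_typ hA hD hE6 row_sz row_twF4 hG

end Cfsg.Agent.H551.OddTwo
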